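import Mathlib
import Cfsg.Agent.Base
import Cfsg.Agent.Lib.LocStruct.SylowIn
import Cfsg.Agent.Lib.LocEven.Idx
import Cfsg.Agent.Lib.LocEven.Isolated

/-! S2997 (project RWL): 3-locally central elements.  Vocabulary. -/

set_option autoImplicit false

namespace H44.RW
open Subgroup H69 H70 Cfsg
open scoped commutatorElement

scoped notation:max "𝐂¹(" z ")" => Subgroup.centralizer (Singleton.singleton z)

variable {G : Type*} [Group G]

/-- 2-elements. -/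
def E2 (s : G) : Prop := ∃ k : ℕ, s ^ 2 ^ k = 1

/-- Elementary abelian 2-subgroups. -/
def EA (A : Subgroup G) : Prop := ∀ a ∈ A, a * a = 1

/-- `M` contains a 3-subgroup normalised and not centralised by a 2-element (`S₃` is involved in `M`). -/
def Bad (M : Subgroup G) : Prop :=
  ∃ R ≤ M, IsPGroup 3 R ∧ ∃ s ∈ M, E2 s ∧ s ∈ 𝐍(R) ∧ s ∉ 𝐂(R)

/-- Such a configuration inside `N(U)` which survives modulo `C(U)`. -/
def BadA (U : Subgroup G) : Prop :=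
  ∃ R ≤ 𝐍(U), IsPGroup 3 R ∧ ∃ s ∈ 𝐍(U), E2 s ∧ s ∈ 𝐍(R) ∧ ∃ r ∈ R, ⁅s, r⁆ ∉ 𝐂(U)

/-- A 3-subgroup centralised by an involution is centralised by every 2-element normalising it. -/
def KK (G : Type*) [Group G] : Prop :=
  ∀ R : Subgroup G, IsPGroup 3 R → ∀ t ∈ 𝐂(R), orderOf t = 2 → ∀ s ∈ 𝐍(R), E2 s → s ∈ 𝐂(R)

/-- The symmetric form of "3-locally central". -/
def LC (x : G) : Prop :=
  ∀ R : Subgroup G, IsPGroup 3 R → R ≠ ⊥ → R ≤ 𝐂¹(x) → 𝐍(R) ≤ 𝐂¹(x)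

/-- A minimal counterexample. -/
structure Hyp (x : G) : Prop where
  cex : ZCex 3 x
  lc : LC x

/-- No nonidentity element of `V` has its centraliser inside `C(x)`. -/
def JP (x : G) (V : Subgroup G) : Prop := ∀ v ∈ V, v ≠ 1 → ¬ 𝐂¹(v) ≤ 𝐂¹(x)

/-- `x` centralises a Sylow 2-subgroup. -/
def Two (x : G) : Prop := ∃ T : Subgroup G, IsSylowIn 2 T ⊤ ∧ T ≤ 𝐂¹(x)

instance fact3 : Fact (Nat.Prime 3) := ⟨Nat.prime_three⟩

theorem mem_c1 {a g : G} : g ∈ 𝐂¹(a) ↔ a * g = g * a := by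
  simp [mem_centralizer_iff]

theorem c1_symm {a g : G} (h : g ∈ 𝐂¹(a)) : a ∈ 𝐂¹(g) := mem_c1.2 (mem_c1.1 h).symm

theorem E2.of_mem {P : Subgroup G} (hP : IsPGroup 2 P) {s : G} (hs : s ∈ P) : E2 s :=
  H69.isPGroup_iff_mem.1 hP s hs

theorem E2.isP {s : G} (h : E2 s) : IsPGroup 2 (zpowers s) := by
  obtain ⟨k, hk⟩ := h
  refine H69.isPGroup_iff_mem.2 ?_
  rintro _ ⟨n, rfl⟩
  exact ⟨k, by rw [← zpow_natCast, ← zpow_mul, mul_comm, zpow_mul, zpow_natCast, hk, one_zpow]⟩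

theorem E2.cj {s : G} (h : E2 s) (g : G) : E2 (g * s * g⁻¹) := by
  obtain ⟨k, hk⟩ := h
  exact ⟨k, by rw [conj_pow, hk, mul_one, mul_inv_cancel]⟩

theorem E2.map {Γ : Type*} [Group Γ] (f : G →* Γ) {s : G} (h : E2 s) : E2 (f s) := by
  obtain ⟨k, hk⟩ := h
  exact ⟨k, by rw [← map_pow, hk, map_one]⟩

theorem E2.of_sq {s : G} (h : s * s = 1) : E2 s := ⟨1, by rwa [pow_one, pow_two]⟩

theorem EA.comm {A : Subgroup G} (h : EA A) {a b : G} (ha : a ∈ A) (hb : b ∈ A) : a * b = b * a := by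
  have h1 := h a ha
  have h2 := h b hb
  have h3 := h _ (A.mul_mem ha hb)
  calc a * b = a * (a * b * (a * b)) * b * (a * a) * (b * b) := by rw [h1, h2, h3]; group
    _ = (a * a) * b * a * (b * b) * (a * a) * (b * b) := by group
    _ = b * a := by rw [h1, h2]; group

theorem EA.isP {A : Subgroup G} (h : EA A) : IsPGroup 2 A :=
  H69.isPGroup_iff_mem.2 fun a ha => E2.of_sq (h a ha)

theorem EA.le_cent {A : Subgroup G} (h : EA A) : A ≤ 𝐂(A) :=
  fun _ ha => mem_centralizer_iff_commute.2 fun _ hb => h.comm hb ha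

theorem EA.mono {A B : Subgroup G} (h : EA A) (hB : B ≤ A) : EA B := fun b hb => h b (hB hb)

theorem Bad.mono {M L : Subgroup G} (h : Bad M) (hL : M ≤ L) : Bad L := by
  obtain ⟨R, h1, h2, s, h3, h4⟩ := h
  exact ⟨R, h1.trans hL, h2, s, hL h3, h4⟩

theorem BadA.bad {U : Subgroup G} (h : BadA U) : Bad 𝐍(U) := by
  obtain ⟨R, h1, h2, s, h3, h4, h5, r, hr, h6⟩ := h
  refine ⟨R, h1, h2, s, h3, h4, h5, fun e => h6 ?_⟩
  rw [commutatorElement_eq_one_iff_mul_comm.2 (mem_centralizer_iff_commute.1 e r hr).symm]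
  exact one_mem _

theorem BadA.ne_bot {U : Subgroup G} (h : BadA U) : U ≠ ⊥ := by
  rintro rfl
  obtain ⟨R, -, -, s, -, -, -, r, -, h6⟩ := h
  exact h6 (by rw [centralizer_bot]; exact mem_top _)

theorem Bad.cj {M : Subgroup G} (h : Bad M) (g : G) : Bad (M ^ᶜ g) := by
  obtain ⟨R, h1, h2, s, h3, h4, h5, h6⟩ := h
  refine ⟨R ^ᶜ g, cj_mono g h1, isPGroup_cj h2 g, _, cj_mem g h3, h4.cj g, ?_, ?_⟩
  · rw [← cj_normalizer]; exact cj_mem g h5
  · rw [← cj_centralizer, cj_mem_iff]; exact h6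

theorem BadA.cj {U : Subgroup G} (h : BadA U) (g : G) : BadA (U ^ᶜ g) := by
  obtain ⟨R, h1, h2, s, h3, h4, h5, r, hr, h6⟩ := h
  refine ⟨R ^ᶜ g, by rw [← cj_normalizer]; exact cj_mono g h1, isPGroup_cj h2 g, g * s * g⁻¹,
    by rw [← cj_normalizer]; exact cj_mem g h3, h4.cj g, by rw [← cj_normalizer]; exact cj_mem g h5,
    _, cj_mem g hr, fun e => h6 ?_⟩
  rw [← cj_centralizer, ← conjugate_commutatorElement, cj_mem_iff] at e
  exact e

end H44.RW
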