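import Mathlib
import Cfsg.Agent.Base
import Cfsg.Agent.Lib.Rwl.Defs

/-! RWL: lifting of configurations. -/

set_option autoImplicit false

namespace H44.RW
open Subgroup H69 H70 Cfsg
open scoped commutatorElement

universe u
variable {G : Type u} [Group G] [Finite G]

omit [Finite G] in
theorem eq_one23 {c : G} {R : Subgroup G} (hR : IsPGroup 3 R) (hc : c ∈ R) (h2 : E2 c) : c = 1 := by
  obtain ⟨k, hk⟩ := h2
  obtain ⟨j, hj⟩ := H69.isPGroup_iff_mem.1 hR c hc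
  have := pow_gcd_eq_one.2 ⟨hk, hj⟩
  rwa [Nat.Coprime.pow k j (by decide : Nat.Coprime 2 3), pow_one] at this

omit [Finite G] in
theorem mem_of_pow23 {c : G} {R C : Subgroup G} (hR : IsPGroup 3 R) (hc : c ∈ R) {k : ℕ}
    (h2 : c ^ 2 ^ k ∈ C) : c ∈ C := by
  obtain ⟨j, hj⟩ := H69.isPGroup_iff_mem.1 hR c hc
  have h : (2 ^ k).Coprime (orderOf c) :=
    (Nat.Coprime.pow k j (by decide : Nat.Coprime 2 3)).coprime_dvd_right (orderOf_dvd_of_pow_eq_one hj)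
  obtain ⟨m, hm⟩ := exists_pow_eq_self_of_coprime h
  rw [← hm]
  exact pow_mem h2 m

omit [Finite G] in
theorem cm_mem {R : Subgroup G} {s r : G} (hn : s ∈ 𝐍(R)) (hr : r ∈ R) : ⁅s, r⁆ ∈ R :=
  mul_mem (conj_mem_of_mem_normalizer hn hr) (inv_mem hr)

omit [Finite G] in
theorem cent_iff_cm {R : Subgroup G} {s : G} : s ∈ 𝐂(R) ↔ ∀ r ∈ R, ⁅s, r⁆ = 1 :=
  mem_centralizer_iff_commute.trans (forall₂_congr fun _ _ =>
    eq_comm.trans commutatorElement_eq_one_iff_mul_comm.symm)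

omit [Finite G] in
theorem map_cent {Γ : Type*} [Group Γ] (f : G →* Γ) {R : Subgroup G} {s : G} (h : s ∈ 𝐂(R)) :
    f s ∈ 𝐂(R.map f) := by
  refine mem_centralizer_iff_commute.2 ?_
  rintro _ ⟨r, hr, rfl⟩
  rw [← map_mul, ← map_mul, mem_centralizer_iff_commute.1 h r hr]

omit [Finite G] in
theorem map_norm {Γ : Type*} [Group Γ] (f : G →* Γ) {R : Subgroup G} {s : G} (h : s ∈ 𝐍(R)) :
    f s ∈ 𝐍(R.map f) := le_normalizer_map f (mem_map_of_mem f h)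

/-- Lifting a configuration (3-group, normalising 2-element) along a homomorphism. -/
theorem lift_cfg {Γ : Type*} [Group Γ] [Finite Γ] (f : G →* Γ) {M : Subgroup G} {R' : Subgroup Γ}
    (hR : IsPGroup 3 R') (hM : R' ≤ M.map f) {s' : Γ} (hs : s' ∈ M.map f) (h2 : E2 s')
    (hn : s' ∈ 𝐍(R')) : ∃ R : Subgroup G, IsSylowIn 3 R (M ⊓ R'.comap f) ∧ R.map f = R' ∧
      ∃ s ∈ M, E2 s ∧ s ∈ 𝐍(R) ∧ f s = s' := by
  obtain ⟨R, hS⟩ := exists_isSylowIn 3 (M ⊓ R'.comap f)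
  have e1 : (M ⊓ R'.comap f).map f = R' := by
    refine le_antisymm (map_le_iff_le_comap.2 inf_le_right) fun r hr => ?_
    obtain ⟨m, hm, rfl⟩ := hM hr
    exact mem_map_of_mem f ⟨hm, hr⟩
  have e : R.map f = R' := by
    have := hS.map f
    rw [e1] at this
    exact (this.max R' this.1 le_rfl hR).symm
  obtain ⟨m, hm, rfl⟩ := hs
  have hX : m ∈ 𝐍(M ⊓ R'.comap f) := by
    rw [← cj_eq_self_iff, cj_inf, cj_eq_of_mem hm, comap_cj, cj_eq_of_mem_normalizer hn]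
  obtain ⟨k, hk, n, hn', rfl⟩ := hS.frattini hX
  have hnM : n ∈ M := (M.mul_mem_cancel_left hk.1).1 hm
  have hRY : R ≤ M ⊓ 𝐍(R) := le_inf (hS.1.trans inf_le_left) le_normalizer
  have h3 : f (k * n) ∈ (M ⊓ 𝐍(R)).map f := by
    rw [map_mul]
    exact mul_mem (map_mono hRY (e ▸ hk.2)) (mem_map_of_mem f ⟨hnM, hn'⟩)
  obtain ⟨P, hP⟩ := exists_isSylowIn 2 (M ⊓ 𝐍(R))
  obtain ⟨_, ⟨y, hy, rfl⟩, h4⟩ := (hP.map f).exists_le_cj h2.isP (zpowers_le.2 h3)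
  rw [← map_cj] at h4
  obtain ⟨s, hs, es⟩ := h4 (mem_zpowers _)
  have h5 := (hP.cj_of_mem hy)
  exact ⟨R, hS, e, s, (h5.1 hs).1, E2.of_mem h5.2 hs, (h5.1 hs).2, es⟩

theorem Bad.of_map {Γ : Type*} [Group Γ] [Finite Γ] (f : G →* Γ) {M : Subgroup G} (h : Bad (M.map f)) :
    Bad M := by
  obtain ⟨R', h1, h2, s', h3, h4, h5, h6⟩ := h
  obtain ⟨R, hR, rfl, s, hs, h7, h8, rfl⟩ := lift_cfg f h2 h1 h3 h4 h5
  exact ⟨R, hR.1.trans inf_le_left, hR.2, s, hs, h7, h8, fun e => h6 (map_cent f e)⟩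

omit [Finite G] in
theorem Bad.push {M : Subgroup G} {L : Subgroup M} (h : Bad L) : Bad (L.map M.subtype) := by
  obtain ⟨R, h1, h2, s, h3, h4, h5, h6⟩ := h
  refine ⟨R.map M.subtype, map_mono h1, h2.map _, s, mem_map_of_mem _ h3, h4.map M.subtype,
    map_norm M.subtype h5, fun e => h6 (mem_centralizer_iff_commute.2 fun r hr => Subtype.ext ?_)⟩
  exact mem_centralizer_iff_commute.1 e r (mem_map_of_mem _ hr)

omit [Finite G] in
theorem BadA.push {M : Subgroup G} {U : Subgroup M} (h : BadA U) : BadA (U.map M.subtype) := by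
  obtain ⟨R, h1, h2, s, h3, h4, h5, r, hr, h6⟩ := h
  refine ⟨R.map M.subtype, (map_mono h1).trans (le_normalizer_map _), h2.map _, s,
    map_norm M.subtype h3, h4.map M.subtype, map_norm M.subtype h5, r, mem_map_of_mem _ hr,
    fun e => h6 (mem_centralizer_iff_commute.2 fun u hu => Subtype.ext ?_)⟩
  exact mem_centralizer_iff_commute.1 e u (mem_map_of_mem _ hu)

theorem v4_mul : ∀ a b : Equiv.Perm (Fin 4), (a * a = 1 ∧ Equiv.Perm.sign a = 1) →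
    (b * b = 1 ∧ Equiv.Perm.sign b = 1) → a * b * (a * b) = 1 := by decide +kernel

/-- the four-group of `S₄` -/
def V4 : Subgroup (Equiv.Perm (Fin 4)) where
  carrier := {g | g * g = 1 ∧ Equiv.Perm.sign g = 1}
  mul_mem' {a b} ha hb := ⟨v4_mul a b ha hb, by rw [map_mul, ha.2, hb.2, one_mul]⟩
  one_mem' := by simp
  inv_mem' {a} ha := ⟨by rw [← mul_inv_rev, ha.1, inv_one], by rw [map_inv, ha.2, inv_one]⟩

instance : V4.Normal := ⟨fun n hn g => ⟨by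
  calc g * n * g⁻¹ * (g * n * g⁻¹) = g * (n * n) * g⁻¹ := by group
    _ = 1 := by rw [hn.1]; group, by
  rw [map_mul, map_mul, hn.2, map_inv, mul_one, mul_inv_cancel]⟩⟩

theorem s4_facts : ∃ y a v : Equiv.Perm (Fin 4), y ^ 3 = 1 ∧ a * a = 1 ∧ a * y * a⁻¹ = y⁻¹ ∧ v * v = 1 ∧
    Equiv.Perm.sign v = 1 ∧ v * (a * y * a⁻¹ * y⁻¹) ≠ a * y * a⁻¹ * y⁻¹ * v :=
  ⟨Equiv.swap 0 1 * Equiv.swap 1 2, Equiv.swap 0 1, Equiv.swap 0 1 * Equiv.swap 2 3, by decide +kernel⟩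

theorem exists_badA0 (f : G →* Equiv.Perm (Fin 4)) (hf : Function.Surjective f) :
    ∃ U : Subgroup G, IsPGroup 2 U ∧ BadA U := by
  have hV : IsPGroup 2 V4 := EA.isP fun g hg => hg.1
  obtain ⟨U, hU⟩ := exists_isSylowIn 2 (V4.comap f)
  have e : U.map f = V4 := by
    have := hU.map f
    rw [map_comap_eq_self_of_surjective hf] at this
    exact (this.max V4 this.1 le_rfl hV).symm
  have hM : ∀ g, g ∈ 𝐍(U).map f := fun g => by
    obtain ⟨g, rfl⟩ := hf g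
    obtain ⟨k, hk, n, hn, rfl⟩ := hU.frattini (g := g) (normal_iff_top_le_normalizer.1 inferInstance trivial)
    rw [map_mul]
    exact mul_mem (map_mono le_normalizer (e ▸ hk)) (mem_map_of_mem f hn)
  obtain ⟨y, a, v, y3, a2, ay, v1, v2, hv⟩ := s4_facts
  have hy : IsPGroup 3 (zpowers y) := H69.isPGroup_iff_mem.2 (by
    rintro _ ⟨n, rfl⟩
    exact ⟨1, by rw [pow_one, ← zpow_natCast, ← zpow_mul, mul_comm, zpow_mul, zpow_natCast, y3, one_zpow]⟩)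
  have hn : a ∈ 𝐍(zpowers y) := by rw [← cj_eq_self_iff, cj_zpowers, ay, zpowers_inv]
  obtain ⟨R, hR, eR, s, hs, h2, h3, es⟩ := lift_cfg f (M := 𝐍(U)) hy (fun g _ => hM g) (hM _)
    (E2.of_sq a2) hn
  obtain ⟨r, hr, er⟩ := eR.ge (mem_zpowers y)
  refine ⟨U, hU.2, R, hR.1.trans inf_le_left, hR.2, s, hs, h2, h3, r, hr, fun c => ?_⟩
  have h4 := map_cent f c
  rw [e, map_commutatorElement, es, er] at h4
  exact hv (mem_centralizer_iff_commute.1 h4 v ⟨v1, v2⟩)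

theorem exists_badA (h : Involves (Equiv.Perm (Fin 4)) G) :
    ∃ U : Subgroup G, IsPGroup 2 U ∧ BadA U := by
  obtain ⟨K, R, _, ⟨e⟩⟩ := h
  obtain ⟨U, h1, h2⟩ := exists_badA0 (e.toMonoidHom.comp (QuotientGroup.mk' _))
    (e.surjective.comp (QuotientGroup.mk'_surjective _))
  exact ⟨_, h1.map _, h2.push⟩

theorem Bad.of_inv4 {M : Subgroup G} (h : Involves (Equiv.Perm (Fin 4)) M) : Bad M := by
  obtain ⟨U, -, h2⟩ := exists_badA h
  exact h2.bad.push.mono (map_subtype_le _)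

theorem BadA.up {U X U₁ : Subgroup G} (h : BadA U) (hX : X ≤ 𝐍(U)) (hn : 𝐍(U) ≤ 𝐍(X))
    (hC : 𝐂(U) ≤ X) (h2 : ∀ g ∈ X, ∃ k : ℕ, g ^ 2 ^ k ∈ 𝐂(U)) (hU : U ≤ U₁)
    (h1 : IsSylowIn 2 U₁ X) : BadA U₁ := by
  obtain ⟨R, a1, a2, s, a3, a4, a5, r, hr, a6⟩ := h
  have hc : ⁅s, r⁆ ∉ X := fun e => (h2 _ e).elim fun k hk => a6 (mem_of_pow23 a2 (cm_mem a5 hr) hk)
  have : (X.subgroupOf 𝐍(U)).Normal := normal_subgroupOf_of_le_normalizer hn
  let f := QuotientGroup.mk' (X.subgroupOf 𝐍(U))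
  have hk : ∀ g : 𝐍(U), f g = 1 ↔ g.1 ∈ X := fun g => QuotientGroup.eq_one_iff g
  have hM : ∀ g, g ∈ (𝐍(U₁).subgroupOf 𝐍(U)).map f := fun g => by
    obtain ⟨g, rfl⟩ := QuotientGroup.mk'_surjective _ g
    obtain ⟨k, hk', n, hn', e⟩ := h1.frattini (hn g.2)
    have hnU : n ∈ 𝐍(U) := (mul_mem_cancel_left (hX hk')).1 (e ▸ g.2)
    refine ⟨⟨n, hnU⟩, hn', ?_⟩
    rw [show g = ⟨k, hX hk'⟩ * ⟨n, hnU⟩ from Subtype.ext e, map_mul, (hk ⟨k, hX hk'⟩).2 hk', one_mul]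
  have s2 : E2 (⟨s, a3⟩ : 𝐍(U)) := a4.imp fun k hk => Subtype.ext hk
  have sn : (⟨s, a3⟩ : 𝐍(U)) ∈ 𝐍(R.subgroupOf 𝐍(U)) := by
    rw [← cj_eq_self_iff, subgroupOf_cj, cj_eq_of_mem_normalizer a5]
  obtain ⟨R₁, b1, b2, s₁, b3, b4, b5, b6⟩ := lift_cfg f ((isPGroup_subgroupOf a2 _).map f)
    (fun g _ => hM g) (hM _) (s2.map f) (map_norm f sn)
  obtain ⟨r₁, hr₁, er⟩ := b2.ge (mem_map_of_mem f (show (⟨r, a1 hr⟩ : 𝐍(U)) ∈ R.subgroupOf _ from hr))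
  refine ⟨R₁.map (Subgroup.subtype _), le_subgroupOf_iff.1 (b1.1.trans inf_le_left), b1.2.map _, s₁, b3,
    b4.map (Subgroup.subtype _), map_norm (Subgroup.subtype _) b5, r₁, mem_map_of_mem _ hr₁, fun e => hc ?_⟩
  have h3 : f ⁅s₁, r₁⁆ = 1 := (hk _).2 (hC (centralizer_anti hU e))
  rw [map_commutatorElement, b6, er, ← map_commutatorElement] at h3
  exact (hk _).1 h3

omit [Finite G] in
theorem pow_mem_cent {U : Subgroup G} (hU : IsPGroup 2 U) :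
    ∀ g ∈ U ⊔ 𝐂(U), ∃ k : ℕ, g ^ 2 ^ k ∈ 𝐂(U) := fun g hg => by
  obtain ⟨u, hu, c, hc, rfl⟩ := (mem_sup_of_le_normalizer_left (centralizer_le_normalizer _)).1 hg
  obtain ⟨k, hk⟩ := E2.of_mem hU hu
  refine ⟨k, ?_⟩
  rw [Commute.mul_pow (mem_centralizer_iff_commute.1 hc u hu), hk, one_mul]
  exact pow_mem hc _

theorem BadA.self {U T : Subgroup G} (h : BadA U) (hU : IsPGroup 2 U)
    (hmax : ∀ U' : Subgroup G, IsPGroup 2 U' → BadA U' → Nat.card U' ≤ Nat.card U)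
    (hT : IsPGroup 2 T) (hUT : U ≤ T) : T ⊓ 𝐂(U) ≤ U := by
  obtain ⟨U₁, h1, h2⟩ := exists_isSylowIn_le (R := U ⊔ T ⊓ 𝐂(U)) (L := U ⊔ 𝐂(U))
    (hT.to_le (sup_le hUT inf_le_left)) (sup_le_sup_left inf_le_right _)
  have h3 := h.up (sup_le le_normalizer (centralizer_le_normalizer _))
    (H69.le_normalizer_sup le_rfl (H69.normalizer_le_normalizer_centralizer U)) le_sup_right (pow_mem_cent hU)
    (le_sup_left.trans h2) h1
  exact (le_sup_right.trans h2).trans (eq_of_le_of_card_ge (le_sup_left.trans h2) (hmax U₁ h1.2 h3)).ge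

omit [Finite G] in
/-- `[R,s,s] = 1` gives `[R,s] = 1`. -/
theorem cent_of_comm {R : Subgroup G} (hR : IsPGroup 3 R) {s : G} (h2 : E2 s) (hn : s ∈ 𝐍(R))
    (h : ∀ r ∈ R, s * ⁅s, r⁆ = ⁅s, r⁆ * s) : s ∈ 𝐂(R) := by
  refine cent_iff_cm.2 fun r hr => eq_one23 hR (cm_mem hn hr) ?_
  obtain ⟨k, hk⟩ := h2
  have c : Commute s ⁅s, r⁆ := h r hr
  have e : s * r = ⁅s, r⁆ * r * s := by rw [commutatorElement_def]; group
  have key : ∀ n : ℕ, s ^ n * r = ⁅s, r⁆ ^ n * r * s ^ n := fun n => by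
    induction n with
    | zero => simp
    | succ n ih =>
      rw [pow_succ' s, mul_assoc, ih, ← mul_assoc, ← mul_assoc, (c.pow_right n).eq, mul_assoc _ s, e,
        pow_succ ⁅s, r⁆]
      group
  have := key (2 ^ k)
  rw [hk, one_mul, mul_one] at this
  exact ⟨k, (mul_eq_right.1 this.symm)⟩

theorem KK.badA (k : KK G) {C : Subgroup G} (hC : IsPGroup 2 C) (h1 : C ≠ ⊥) (h : Bad 𝐍(C)) :
    BadA C := by
  obtain ⟨R, a1, a2, s, a3, a4, a5, a6⟩ := h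
  refine ⟨R, a1, a2, s, a3, a4, a5, by_contra fun hc => a6 ?_⟩
  push Not at hc
  obtain ⟨t, ht, t2⟩ := exists_orderOf_eq_prime hC h1
  have h5 := k (R ⊓ 𝐂(C)) (a2.to_le inf_le_left) t (le_centralizer_iff.1 inf_le_right ht) t2 s
    (H69.le_normalizer_inf (zpowers_le.2 a5) (H69.le_normalizer_centralizer (zpowers_le.2 a3))
      (mem_zpowers s)) a4
  exact cent_of_comm a2 a4 a5 fun r hr =>
    (mem_centralizer_iff_commute.1 h5 _ ⟨cm_mem a5 hr, hc r hr⟩).symm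

theorem mem_npc {N : Subgroup G} [N.Normal] {P : Sylow 3 G} (h : N.IsComplement' (P : Subgroup G))
    {s : G} (hs : E2 s) : s ∈ N := by
  obtain ⟨k, hk⟩ := IsPGroup.iff_card.1 P.isPGroup'
  have h3 : IsPGroup 3 (⊤ : Subgroup (G ⧸ N)) :=
    isPGroup_top_iff.2 (IsPGroup.of_card (n := k) (by rw [← hk, ← h.symm.index_eq_card]; rfl))
  exact (QuotientGroup.eq_one_iff s).1 (eq_one23 h3 trivial (hs.map (QuotientGroup.mk' N)))

theorem npc_not3 {N : Subgroup G} {P : Sylow 3 G} (h : N.IsComplement' (P : Subgroup G)) :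
    ¬ 3 ∣ Nat.card N := by
  rw [← h.index_eq_card]
  exact P.not_dvd_index

theorem not_bad_of_npc {M : Subgroup G} (h : HasNormalPComplement 3 M) : ¬ Bad M := by
  rintro ⟨R, a1, a2, s, a3, a4, a5, a6⟩
  obtain ⟨P, N, _, hN⟩ := h
  refine a6 (cent_iff_cm.2 fun r hr => ?_)
  have h1 : (⟨s, a3⟩ : M) ∈ N := mem_npc hN (a4.imp fun k hk => Subtype.ext hk)
  have h2 : ⁅(⟨s, a3⟩ : M), ⟨r, a1 hr⟩⁆ ∈ N := by
    rw [commutatorElement_def, mul_assoc, mul_assoc, ← mul_assoc _ _⁻¹]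
    exact mul_mem h1 (Normal.conj_mem inferInstance _ (inv_mem h1) _)
  have h3 := eq_bot_of_not_dvd ((isPGroup_subgroupOf a2 M).to_le (inf_le_left (b := N))) inf_le_right
    (npc_not3 hN)
  have h4 : ⁅(⟨s, a3⟩ : M), ⟨r, a1 hr⟩⁆ ∈ R.subgroupOf M := cm_mem (R := R) a5 hr
  exact congrArg Subtype.val (mem_bot.1 (h3.le ⟨h4, h2⟩))

theorem cyc_cent {R : Subgroup G} (hR : IsPGroup 3 R) (hc : IsCyclic R) {s y : G} (h2 : E2 s)
    (hn : s ∈ 𝐍(R)) (hy : y ∈ R) (h1 : y ≠ 1) (hs : s ∈ 𝐂¹(y)) : s ∈ 𝐂(R) := by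
  obtain ⟨z, hz, z3⟩ := exists_orderOf_eq_prime (hR.to_le (zpowers_le.2 hy)) (zpowers_ne_bot.2 h1)
  have hzR := zpowers_le.2 hy hz
  refine H2.le_centralizer_of_prime_order (A := zpowers s) IsCyclic.isMulCommutative (zpowers_le.2 hn)
    (IsPGroup.coprime_card_of_ne 2 3 (by decide) _ _ h2.isP hR) (fun v hv hp => ?_) (mem_zpowers s)
  have v3 : orderOf v = 3 := by
    obtain ⟨j, hj⟩ := H69.isPGroup_iff_mem.1 hR v hv
    exact (Nat.prime_dvd_prime_iff_eq hp Nat.prime_three).1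
      (hp.dvd_of_dvd_pow (orderOf_dvd_of_pow_eq_one hj))
  have h4 : v ∈ zpowers z := by
    classical
    have := Fintype.ofFinite R
    have o1 : orderOf (⟨z, hzR⟩ : R) = 3 := by rw [← orderOf_coe]; exact z3
    have p3 : ∀ w ∈ zpowers (⟨z, hzR⟩ : R), w ^ 3 = 1 := fun w hw => by
      rw [← o1, ← Nat.card_zpowers]
      exact congrArg Subtype.val (pow_card_eq_one' (x := (⟨w, hw⟩ : zpowers (⟨z, hzR⟩ : R))))
    have e := Finset.eq_of_subset_of_card_le (s := Finset.univ.filter (· ∈ zpowers (⟨z, hzR⟩ : R)))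
      (t := Finset.univ.filter fun w : R => w ^ 3 = 1)
      (fun w hw => Finset.mem_filter.2 ⟨Finset.mem_univ _, p3 w (Finset.mem_filter.1 hw).2⟩)
      ((IsCyclic.card_pow_eq_one_le (by decide)).trans (by
        rw [← Fintype.card_subtype, ← Nat.card_eq_fintype_card]
        exact (o1.symm.trans (Nat.card_zpowers _).symm).le))
    have h5 : (⟨v, hv⟩ : R) ^ 3 = 1 := Subtype.ext (by rw [← v3]; exact pow_orderOf_eq_one v)
    obtain ⟨j, hj⟩ := mem_zpowers_iff.1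
      (Finset.mem_filter.1 (e.ge (Finset.mem_filter.2 ⟨Finset.mem_univ _, h5⟩))).2
    exact ⟨j, congrArg Subtype.val hj⟩
  rw [H69.centralizer_zpowers]
  exact zpowers_le.2 (zpowers_le.2 (c1_symm hs) hz) h4

end H44.RW
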