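import Mathlib
import Cfsg.Agent.Base
import Cfsg.Agent.Lib.Rwl.Bas
import Cfsg.Agent.Lib.Core.Coprime

set_option autoImplicit false

namespace H44.RW
open Subgroup H69 H70 Cfsg
open scoped commutatorElement

universe u
variable {G : Type u} [Group G] [Finite G]

theorem KK.sub (k : KK G) (M : Subgroup G) : KK M := by
  intro R hR t ht ot s hs es
  have h1 : (t : G) ∈ M ⊓ 𝐂(R.map M.subtype) := by rw [← map_subtype_centralizer]; exact ⟨t, ht, rfl⟩
  have h2 : (s : G) ∈ M ⊓ 𝐍(R.map M.subtype) := by rw [← map_subtype_normalizer]; exact ⟨s, hs, rfl⟩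
  have := k _ (hR.map _) t h1.2 (by rwa [Subgroup.orderOf_coe]) s h2.2 (es.map M.subtype)
  exact mem_centralizer_iff_commute.2 fun r hr =>
    Subtype.ext (mem_centralizer_iff_commute.1 this r ⟨r, hr, rfl⟩)

theorem kq_eq_one {s : G} (h : E2 s) {K : Subgroup G} (ho : ¬ 2 ∣ Nat.card K) (hs : s ∈ K) : s = 1 := by
  have : Fact (Nat.Prime 2) := ⟨Nat.prime_two⟩
  exact zpowers_eq_bot.1 (eq_bot_of_not_dvd h.isP (zpowers_le.2 hs) ho)

theorem KK.quot (k : KK G) {Γ : Type*} [Group Γ] [Finite Γ] (f : G →* Γ) (hf : Function.Surjective f)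
    (ho : ¬ 2 ∣ Nat.card f.ker) {t : G} (ht : orderOf t = 2) (hc : t ∈ 𝐂(f.ker)) : KK Γ := by
  intro R' hR' t' ht' ot' s' hs' es'
  have top : (⊤ : Subgroup G).map f = ⊤ := map_top_of_surjective f hf
  have t2 : t' * t' = 1 := by rw [← pow_two, ← ot', pow_orderOf_eq_one]
  obtain ⟨R, hR, eR, t₁, -, e1, n1, f1⟩ := lift_cfg f (M := ⊤) hR' (top ▸ le_top) (top ▸ mem_top t')
    (E2.of_sq t2) (centralizer_le_normalizer _ ht')
  have o1 : orderOf t₁ = 2 := by
    have : Fact (Nat.Prime 2) := ⟨Nat.prime_two⟩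
    refine orderOf_eq_prime (kq_eq_one (E2.of_mem e1.isP (pow_mem (mem_zpowers _) 2)) ho ?_) ?_
    · rw [MonoidHom.mem_ker, map_pow, f1, pow_two, t2]
    · rintro rfl
      rw [← f1, map_one, orderOf_one] at ot'
      omega
  have c1 : t₁ ∈ 𝐂(R ⊓ f.ker) := k _ (hR.isP.to_le inf_le_left) t (centralizer_anti inf_le_right hc) ht t₁
    (zpowers_le.1 (H69.le_normalizer_inf (zpowers_le.2 n1) (le_top.trans (normal_iff_top_le_normalizer.1 inferInstance)))) e1
  have c2 : t₁ ∈ 𝐂(R) := cent_of_comm hR.isP e1 n1 fun r hr => by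
    refine (mem_centralizer_iff_commute.1 c1 _ ⟨?_, ?_⟩).symm
    · exact R.mul_mem (conj_mem_of_mem_normalizer n1 hr) (R.inv_mem hr)
    · show f ⁅t₁, r⁆ = 1
      rw [map_commutatorElement, f1, commutatorElement_eq_one_iff_mul_comm]
      exact (mem_centralizer_iff_commute.1 ht' _ (eR ▸ ⟨r, hr, rfl⟩)).symm
  obtain ⟨R₂, hR₂, eR₂, s, -, e2, n2, f2⟩ := lift_cfg f (M := ⊤) hR' (top ▸ le_top) (top ▸ mem_top s') es' hs'
  obtain ⟨c, -, rfl⟩ := hR.conj hR₂
  have := k _ hR₂.isP (c * t₁ * c⁻¹) (by rw [← cj_centralizer]; exact cj_mem c c2)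
    (by rw [← o1]; exact (MulAut.conj c).orderOf_eq t₁) s n2 e2
  refine mem_centralizer_iff_commute.2 fun r hr => ?_
  rw [← eR₂] at hr
  obtain ⟨r, hr, rfl⟩ := hr
  rw [← f2, ← map_mul, ← map_mul, mem_centralizer_iff_commute.1 this r hr]

theorem KK.odd (k : KK G) {y g : G} (hy : orderOf y = 3) (hg : g * y * g⁻¹ = y⁻¹) {t : G}
    (ht : t ∈ 𝐂¹(y)) : orderOf t ≠ 2 := by
  intro ot
  obtain ⟨a, m, hm, e⟩ := Nat.exists_eq_two_pow_mul_odd (orderOf_pos g).ne'
  have key : ∀ j : ℕ, g ^ (2 * j + 1) * y * (g ^ (2 * j + 1))⁻¹ = y⁻¹ := fun j => by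
    induction j with
    | zero => simpa using hg
    | succ j ih =>
      calc g ^ (2 * (j + 1) + 1) * y * (g ^ (2 * (j + 1) + 1))⁻¹
          = g * (g * (g ^ (2 * j + 1) * y * (g ^ (2 * j + 1))⁻¹) * g⁻¹) * g⁻¹ := by
            rw [show 2 * (j + 1) + 1 = 2 * j + 1 + 1 + 1 by ring, pow_succ', pow_succ']; group
        _ = g * (g * y * g⁻¹)⁻¹ * g⁻¹ := by rw [ih]; group
        _ = y⁻¹ := by rw [hg, inv_inv, hg]
  obtain ⟨j, rfl⟩ := hm
  have py : IsPGroup 3 (zpowers y) := isPGroup_zpowers_of_orderOf ⟨1, by rw [hy, pow_one]⟩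
  have := k _ py t (by rwa [H69.centralizer_zpowers]) ot (g ^ (2 * j + 1))
    (by rw [← cj_eq_self_iff, cj_zpowers, key, zpowers_inv])
    ⟨a, by rw [← pow_mul, mul_comm, ← e, pow_orderOf_eq_one]⟩
  rw [H69.centralizer_zpowers, mem_centralizer_singleton_iff_conj, key] at this
  have h2 : orderOf y ∣ 2 := orderOf_dvd_of_pow_eq_one (by rw [pow_two]; exact mul_eq_one_iff_eq_inv.2 this.symm)
  rw [hy] at h2
  norm_num at h2

theorem exists_three {Γ : Type*} [Group Γ] [Finite Γ] (f : G →* Γ) (hk : IsPGroup 2 f.ker) {y₀ : G}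
    (hy : orderOf (f y₀) = 3) : ∃ y ∈ zpowers y₀, orderOf y = 3 ∧ f y = f y₀ := by
  obtain ⟨k, e⟩ := H69.isPGroup_iff_mem.1 hk (y₀ ^ 3) (by rw [MonoidHom.mem_ker, map_pow, ← hy, pow_orderOf_eq_one])
  have e2 : f (y₀ ^ 4 ^ k) = f y₀ := by
    rw [map_pow]
    nth_rewrite 2 [← pow_one (f y₀)]
    rw [pow_eq_pow_iff_modEq, hy]
    simpa using (show 4 ≡ 1 [MOD 3] by decide).pow k
  refine ⟨y₀ ^ 4 ^ k, pow_mem (mem_zpowers _) _, orderOf_eq_prime ?_ fun e1 => ?_, e2⟩
  · rw [← pow_mul, show 4 ^ k * 3 = 3 * 2 ^ k * 2 ^ k by rw [show 4 = 2 * 2 by rfl, mul_pow]; ring, pow_mul, pow_mul, e,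
      one_pow]
  · rw [← e2, e1, map_one, orderOf_one] at hy
    omega

theorem kq_three_two {a : G} {K : Subgroup G} (hk : IsPGroup 2 K) {R : Subgroup G} (hR : IsPGroup 3 R) (h1 : a ∈ K)
    (h2 : a ∈ R) : a = 1 := by
  have : Fact (Nat.Prime 2) := ⟨Nat.prime_two⟩
  have := IsPGroup.disjoint_of_ne 2 3 (by norm_num) _ _ hk hR
  exact mem_bot.1 (this.le_bot ⟨h1, h2⟩)

theorem lift_inv {Γ : Type*} [Group Γ] [Finite Γ] (f : G →* Γ) (hk : IsPGroup 2 f.ker) {y g : G}
    (hy : orderOf y = 3) (hg : f g * f y * (f g)⁻¹ = (f y)⁻¹) : ∃ n : G, n * y * n⁻¹ = y⁻¹ := by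
  have py : IsPGroup 3 (zpowers y) := isPGroup_zpowers_of_orderOf ⟨1, by rw [hy, pow_one]⟩
  have hS : IsSylowIn 3 (zpowers y) ((zpowers (f y)).comap f) := by
    refine ⟨zpowers_le.2 (mem_zpowers (f y)), py, fun R h1 h2 h3 => le_antisymm (fun r hr => ?_) h1⟩
    obtain ⟨i, hi⟩ := h2 hr
    have : (y ^ i)⁻¹ * r = 1 := kq_three_two hk h3
      (by rw [MonoidHom.mem_ker, map_mul, map_inv, map_zpow, inv_mul_eq_one]; exact hi)
      (mul_mem (inv_mem (h1 (zpow_mem (mem_zpowers y) i))) hr)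
    exact ⟨i, inv_mul_eq_one.1 this⟩
  obtain ⟨c, hc, n, hn, rfl⟩ := hS.frattini (g := g) (by
    rw [← cj_eq_self_iff, comap_cj, cj_zpowers, hg, zpowers_inv])
  refine ⟨n, mul_eq_one_iff_eq_inv.1 (kq_three_two hk py ?_
    (mul_mem (conj_mem_of_mem_normalizer hn (mem_zpowers y)) (mem_zpowers y)))⟩
  obtain ⟨i, hi⟩ := hc
  have k : Commute (f c) (f y) := by rw [← hi]; exact (Commute.refl _).zpow_left i
  rw [MonoidHom.mem_ker, map_mul, map_mul, map_mul, map_inv, mul_eq_one_iff_eq_inv]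
  calc f n * f y * (f n)⁻¹ = (f c)⁻¹ * (f (c * n) * f y * (f (c * n))⁻¹) * f c := by rw [map_mul]; group
    _ = (f y)⁻¹ := by rw [hg, k.inv_inv.eq]; group

/-- A 2-group normalised by `y`, where `C(y)` has no involution, lies in every normal subgroup containing `y`. -/
theorem le_of_fpf {y : G} (hy : orderOf y = 3) (hc : ∀ t ∈ 𝐂¹(y), orderOf t ≠ 2) {Q E : Subgroup G}
    (hQ : IsPGroup 2 Q) (hn : y ∈ 𝐍(Q)) (hE : y ∈ E) (hQE : Q ≤ 𝐍(E)) : Q ≤ E := by
  have : Fact (Nat.Prime 2) := ⟨Nat.prime_two⟩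
  have h0 : Q ⊓ 𝐂(zpowers y) = ⊥ := by
    by_contra h
    obtain ⟨t, ht, ot⟩ := exists_orderOf_eq_prime (hQ.to_le inf_le_left) h
    exact hc t (H69.centralizer_zpowers y ▸ ht.2) ot
  obtain ⟨k, hk⟩ := hQ.exists_card_eq
  rw [← H2.commutator_sup_centralizer (zpowers_le.2 hn) (by
    rw [Nat.card_zpowers, hy, hk]; exact Nat.Coprime.pow_right k (by norm_num)) (Or.inl inferInstance), h0, sup_bot_eq]
  exact (commutator_mono le_rfl (zpowers_le.2 hE)).trans (commutator_le_right_of_le_normalizer hQE)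

open scoped MatrixGroups in
theorem sl2_three {F : Type*} [Field F] [CharP F 2] :
    (∃ y : SL(2, F), orderOf y = 3) ∧
      ∀ y : SL(2, F), orderOf y = 3 → ∃ g : SL(2, F), g * y * g⁻¹ = y⁻¹ := by
  have h2 : (2 : F) = 0 := CharTwo.two_eq_zero
  have mk : ∀ a b c d : F, a * d - b * c = 1 → ∃ y : SL(2, F), (y : Matrix (Fin 2) (Fin 2) F) = !![a, b; c, d] :=
    fun a b c d h => ⟨⟨!![a, b; c, d], by rwa [Matrix.det_fin_two_of]⟩, rfl⟩
  constructor
  · obtain ⟨y, hy⟩ := mk 0 1 1 1 (by linear_combination -h2)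
    refine ⟨y, orderOf_eq_prime (Subtype.ext ?_) fun e => ?_⟩
    · rw [pow_three, Matrix.SpecialLinearGroup.coe_mul, Matrix.SpecialLinearGroup.coe_mul, hy]
      ext i j
      fin_cases i <;> fin_cases j <;> simp [Matrix.mul_apply, Fin.sum_univ_two] <;> linear_combination h2
    · have := congrFun (congrFun hy 0) 0
      simp [e] at this
  · intro y hy
    obtain ⟨a, b, c, d, hm⟩ : ∃ a b c d : F, (y : Matrix (Fin 2) (Fin 2) F) = !![a, b; c, d] :=
      ⟨_, _, _, _, Matrix.eta_fin_two _⟩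
    have hd : a * d - b * c = 1 := by rw [← Matrix.det_fin_two_of, ← hm, y.det_coe]
    have hi : ((y⁻¹ : SL(2, F)) : Matrix (Fin 2) (Fin 2) F) = !![d, -b; -c, a] := by
      rw [Matrix.SpecialLinearGroup.coe_inv, hm, Matrix.adjugate_fin_two_of]
    have e : y * y = y⁻¹ := by rw [← mul_eq_one_iff_eq_inv, mul_assoc, ← pow_three, ← hy, pow_orderOf_eq_one]
    have e0 := congrArg (fun m : SL(2, F) => (m : Matrix (Fin 2) (Fin 2) F)) e
    simp only [Matrix.SpecialLinearGroup.coe_mul] at e0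
    rw [hi, hm] at e0
    have e1 := congrFun (congrFun e0 0) 0
    have e2 := congrFun (congrFun e0 0) 1
    have e3 := congrFun (congrFun e0 1) 0
    have e4 := congrFun (congrFun e0 1) 1
    simp [Matrix.mul_apply, Fin.sum_univ_two] at e1 e2 e3 e4
    have t : a + d + 1 = 0 := by
      by_contra t
      have k1 : a = 1 := sub_eq_zero.1 ((mul_eq_zero.1 (show (a + d + 1) * (a - 1) = 0 by
        linear_combination e1 + hd)).resolve_left t)
      have k4 : d = 1 := sub_eq_zero.1 ((mul_eq_zero.1 (show (a + d + 1) * (d - 1) = 0 by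
        linear_combination e4 + hd)).resolve_left t)
      have k2 : b = 0 := (mul_eq_zero.1 (show (a + d + 1) * b = 0 by linear_combination e2)).resolve_left t
      have k3 : c = 0 := (mul_eq_zero.1 (show (a + d + 1) * c = 0 by linear_combination e3)).resolve_left t
      rw [k1, k2, k3, k4, ← Matrix.one_fin_two] at hm
      rw [show y = 1 from Subtype.ext hm, orderOf_one] at hy
      omega
    have main : ∀ q r : F, (c * q + b * r) * (c * q + b * r) - q * r = 1 → ∃ g : SL(2, F), g * y * g⁻¹ = y⁻¹ := by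
      intro q r hq
      obtain ⟨g, hg⟩ := mk _ _ _ _ hq
      refine ⟨g, mul_inv_eq_iff_eq_mul.2 (Subtype.ext ?_)⟩
      rw [Matrix.SpecialLinearGroup.coe_mul, Matrix.SpecialLinearGroup.coe_mul, hi, hm, hg]
      ext i j
      fin_cases i <;> fin_cases j <;> simp [Matrix.mul_apply, Fin.sum_univ_two]
      · linear_combination (c * q + b * r) * t - (c * q + b * r) * d * h2
      · linear_combination (c * q + b * r) * b * h2
      · linear_combination (c * q + b * r) * c * h2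
      · linear_combination (c * q + b * r) * t - (c * q + b * r) * a * h2
    by_cases hb : b = 0
    · by_cases hc : c = 0
      · exact main 1 1 (by rw [hb, hc]; linear_combination -h2)
      · exact main c⁻¹ 0 (by field_simp; ring)
    · exact main 0 b⁻¹ (by field_simp; ring)

end H44.RW
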