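import Mathlib
import Cfsg.Agent.Base
import Cfsg.Agent.Lib.Rwl.KQ
import Cfsg.Agent.Lib.GL.Simple

set_option autoImplicit false

namespace H44.RW.LBx
open Subgroup H69 H70 Cfsg
open scoped commutatorElement MatrixGroups

universe u
variable {G : Type u} [Group G]

theorem exists_proj {N : Subgroup G} [N.Normal] {Γ : Type*} [Group Γ] (e : Nonempty (G ⧸ N ≃* Γ)) :
    ∃ π : G →* Γ, Function.Surjective π ∧ π.ker = N := by
  obtain ⟨e⟩ := e
  refine ⟨e.toMonoidHom.comp (QuotientGroup.mk' N), e.surjective.comp (QuotientGroup.mk'_surjective N), ?_⟩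
  ext x
  simp

theorem omega_le (Q : Subgroup G) : omegaOneCenter 2 Q ≤ Q :=
  (closure_le _).2 fun _ hx => hx.1.1

theorem two_or_four {F : Type*} [Field F] [Fintype F] {n : ℕ} (h : Fintype.card F = 2 ^ n) :
    Fintype.card F = 2 ∨ 4 ≤ Fintype.card F := by
  have := Fintype.one_lt_card (α := F)
  rcases n with _ | _ | n
  · omega
  · exact .inl h
  · rw [pow_succ, pow_succ] at h
    have := Nat.two_pow_pos n
    omega

theorem exists_proj_sl {N : Subgroup G} [N.Normal] {F : Type*} [Field F] [Fintype F] (h : 4 ≤ Fintype.card F)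
    (e : Nonempty (G ⧸ N ≃* commutator SL(2, F))) :
    ∃ π : G →* SL(2, F), Function.Surjective π ∧ π.ker = N := by
  rw [H10.commutator_SL_fin_eq_top 2 fun _ => by rwa [Nat.card_eq_fintype_card]] at e
  exact exists_proj (e.map fun e => e.trans topEquiv)

theorem card_comm_sl {F : Type*} [Field F] [Fintype F] (h : Fintype.card F = 2) :
    Nat.card (commutator SL(2, F)) ∣ 3 := by
  have : CharP F 2 := charP_of_card_eq_prime_pow (f := 1) h
  obtain ⟨y, hy⟩ := (sl2_three (F := F)).1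
  have h6 : Nat.card SL(2, F) = 6 := by rw [H10.card_SL_two, Nat.card_eq_fintype_card, h]
  have h3 : Nat.card (zpowers y) = 3 := by rw [Nat.card_zpowers, hy]
  have h2 : (zpowers y).index = 2 := by
    have := (zpowers y).card_mul_index
    rw [h3, h6] at this
    omega
  refine h3 ▸ card_dvd_of_le ?_
  rw [commutator_def, commutator_le]
  intro a _ b _
  rw [commutatorElement_def, mul_mem_iff_of_index_two h2, mul_mem_iff_of_index_two h2,
    mul_mem_iff_of_index_two h2, inv_mem_iff, inv_mem_iff]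
  tauto

theorem card_alt {m : ℕ} (h : m < 2) : Nat.card (alternatingGroup (Fin (2 * m + 1))) ∣ 3 := by
  obtain rfl | rfl : m = 0 ∨ m = 1 := by omega
  · have : Subsingleton (Equiv.Perm (Fin (2 * 0 + 1))) := inferInstanceAs (Subsingleton (Equiv.Perm (Fin 1)))
    rw [Nat.card_of_subsingleton (1 : alternatingGroup (Fin (2 * 0 + 1)))]
    exact one_dvd _
  · rw [nat_card_alternatingGroup, Nat.card_fin]
    decide

theorem alt_inv {m : ℕ} (h : 2 ≤ m) : ∃ y g : alternatingGroup (Fin (2 * m + 1)), orderOf y = 3 ∧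
    g * y * g⁻¹ = y⁻¹ ∧ ∃ v : Fin (2 * m + 1) → ZMod 2, v ≠ 0 ∧ ∑ i, v i = 0 ∧ ∀ i, v (y.1⁻¹ i) = v i := by
  let a : Fin (2 * m + 1) := ⟨0, by omega⟩
  let b : Fin (2 * m + 1) := ⟨1, by omega⟩
  let c : Fin (2 * m + 1) := ⟨2, by omega⟩
  let d : Fin (2 * m + 1) := ⟨3, by omega⟩
  let e : Fin (2 * m + 1) := ⟨4, by omega⟩
  have h3 := Equiv.Perm.isThreeCycle_swap_mul_swap_same (a := a) (b := b) (c := c)
    (by simp [a, b]) (by simp [a, c]) (by simp [b, c])
  obtain ⟨g, hg⟩ := isConj_iff.1 (alternatingGroup.isThreeCycle_isConj (by rw [Nat.card_fin]; omega)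
    (σ := ⟨_, h3.mem_alternatingGroup⟩) (τ := ⟨_, h3.mem_alternatingGroup⟩⁻¹) h3 h3.inv)
  refine ⟨⟨_, h3.mem_alternatingGroup⟩, g, by rw [← orderOf_coe]; exact h3.orderOf, hg,
    Pi.single d 1 + Pi.single e 1, fun k => ?_, ?_, fun i => ?_⟩
  · have := congrFun k d
    simp [d, e] at this
  · simp only [Pi.add_apply, Finset.sum_add_distrib, Finset.sum_pi_single', Finset.mem_univ, if_true]
    rfl
  · have hd : (Equiv.swap a b * Equiv.swap a c) d = d := by
      rw [Equiv.Perm.mul_apply, Equiv.swap_apply_of_ne_of_ne (a := a) (b := c) (by simp [a, d]) (by simp [c, d]),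
        Equiv.swap_apply_of_ne_of_ne (by simp [a, d]) (by simp [b, d])]
    have he : (Equiv.swap a b * Equiv.swap a c) e = e := by
      rw [Equiv.Perm.mul_apply, Equiv.swap_apply_of_ne_of_ne (a := a) (b := c) (by simp [a, e]) (by simp [c, e]),
        Equiv.swap_apply_of_ne_of_ne (by simp [a, e]) (by simp [b, e])]
    simp only [Pi.add_apply, Pi.single_apply, Equiv.Perm.inv_eq_iff_eq, hd, he]

variable [Finite G]

theorem inv_of_proj {Γ : Type*} [Group Γ] [Finite Γ] (π : G →* Γ) (hk : IsPGroup 2 π.ker) {y g : G}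
    (hy : orderOf (π y) = 3) (hg : π g * π y * (π g)⁻¹ = (π y)⁻¹) :
    ∃ z n : G, orderOf z = 3 ∧ π z = π y ∧ n * z * n⁻¹ = z⁻¹ := by
  obtain ⟨z, -, h1, h2⟩ := exists_three π hk hy
  obtain ⟨n, hn⟩ := lift_inv π hk h1 (g := g) (by rwa [h2])
  exact ⟨z, n, h1, h2, hn⟩

end H44.RW.LBx
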