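import Mathlib
import Cfsg.Agent.Base
import Cfsg.Agent.Lib.Rwl.KQ
import Cfsg.Agent.Lib.Rwl.LBx

set_option autoImplicit false

namespace H44.RW
open Subgroup H69 H70 Cfsg
open scoped commutatorElement MatrixGroups

universe u
variable {G : Type u} [Group G] [Finite G]

namespace LBx

omit [Finite G] in
theorem not_two {T E : Subgroup G} (hE : IsBaumannBlock 2 T E) : ¬ E ≤ pCoreOf 2 E := fun h => by
  have hP : IsPGroup 2 E := (H1.isPGroup_pCoreOf (p := 2) E).to_le h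
  refine hE.2.2.2.1 ?_
  have : pResidual 2 E = ⊥ := by
    refine eq_bot_iff.2 ((closure_le _).2 fun x hx => ?_)
    obtain ⟨k, hk⟩ := hP x
    exact orderOf_eq_one_iff.1
      (Nat.eq_one_of_dvd_coprimes (Nat.Coprime.pow_right k hx) dvd_rfl (orderOf_dvd_of_pow_eq_one hk))
  rw [← hE.1, pResidualOf, this, Subgroup.map_bot, commutator_bot_left]

theorem of_proj {E : Subgroup G} {Γ : Type*} [Group Γ] [Finite Γ] (π : E →* Γ) (hs : Function.Surjective π)
    (hk : π.ker = pCore 2 E) {y g : Γ} (hy : orderOf y = 3) (hg : g * y * g⁻¹ = y⁻¹) :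
    ∃ y ∈ E, orderOf y = 3 ∧ ∃ g : G, g * y * g⁻¹ = y⁻¹ := by
  obtain ⟨y, rfl⟩ := hs y
  obtain ⟨g, rfl⟩ := hs g
  obtain ⟨z, n, h1, -, h2⟩ := inv_of_proj π (hk ▸ H1.isPGroup_pCore) hy hg
  exact ⟨z, z.2, by rwa [orderOf_coe], n, congrArg Subtype.val h2⟩

theorem small {T E : Subgroup G} (hE : IsBaumannBlock 2 T E) {Γ : Type*} [Group Γ] [Finite Γ] (π : E →* Γ)
    (hk : π.ker = pCore 2 E) (h3 : Nat.card Γ ∣ 3) :
    ∃ y ∈ E, orderOf y = 3 ∧ ∃ g : G, g * y * g⁻¹ = y⁻¹ := by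
  have mq : ∀ e : E, π e = 1 ↔ (e : G) ∈ pCoreOf 2 E := fun e => by
    rw [← MonoidHom.mem_ker, hk]
    exact (mem_map_iff_mem E.subtype_injective (x := e)).symm
  obtain ⟨y₀, h0, h1⟩ := SetLike.not_le_iff_exists.1 (not_two hE)
  rw [← mq ⟨y₀, h0⟩] at h1
  have o3 : orderOf (π ⟨y₀, h0⟩) = 3 :=
    ((Nat.dvd_prime Nat.prime_three).1 ((_root_.orderOf_dvd_natCard _).trans h3)).resolve_left
      fun e => h1 (orderOf_eq_one_iff.1 e)
  have c3 : Nat.card Γ = 3 := Nat.dvd_antisymm h3 (o3 ▸ _root_.orderOf_dvd_natCard _)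
  obtain ⟨y, -, hy, e⟩ := exists_three π (hk ▸ H1.isPGroup_pCore) o3
  rw [← e] at h1 o3
  have tri : ∀ e ∈ E, e ∈ pCoreOf 2 E ∨ e * (y : G)⁻¹ ∈ pCoreOf 2 E ∨ e * y ∈ pCoreOf 2 E := by
    intro e he
    obtain ⟨k, hk3, hk'⟩ : ∃ k < 3, π y ^ k = π ⟨e, he⟩ := by
      classical
      have := mem_zpowers_of_prime_card c3 h1 (g' := π ⟨e, he⟩)
      rw [mem_zpowers_iff_mem_range_orderOf, o3, Finset.mem_image] at this
      obtain ⟨k, a, b⟩ := this
      exact ⟨k, Finset.mem_range.1 a, b⟩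
    obtain rfl | rfl | rfl : k = 0 ∨ k = 1 ∨ k = 2 := by omega
    · exact .inl ((mq ⟨e, he⟩).1 (by rw [← hk', pow_zero]))
    · exact .inr (.inl ((mq (⟨e, he⟩ * y⁻¹)).1 (by rw [map_mul, map_inv, ← hk', pow_one, mul_inv_cancel])))
    · exact .inr (.inr ((mq (⟨e, he⟩ * y)).1 (by
        rw [map_mul, ← hk', ← pow_succ]; exact orderOf_dvd_iff_pow_eq_one.1 (by rw [o3]))))
  have BN : baumannSubgroupOf 2 T ≤ 𝐍(E) := by
    have := normalizer_commutator_ge_right E (baumannSubgroupOf 2 T)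
    rwa [hE.2.1] at this
  have NQ : 𝐍(E) ≤ 𝐍(pCoreOf 2 E) := H1.normalizer_le_normalizer_pCoreOf E
  have hn : ((pCoreOf 2 E).subgroupOf 𝐍(E)).Normal := normal_subgroupOf_of_le_normalizer NQ
  let f := QuotientGroup.mk' ((pCoreOf 2 E).subgroupOf 𝐍(E))
  have mf : ∀ x : 𝐍(E), f x = 1 ↔ (x : G) ∈ pCoreOf 2 E := fun x => QuotientGroup.eq_one_iff x
  let y' : 𝐍(E) := ⟨y, le_normalizer y.2⟩
  refine ⟨y, y.2, by rwa [orderOf_coe], ?_⟩
  by_contra hc
  have cm : ∀ b : 𝐍(E), f b * f y' = f y' * f b := by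
    intro b
    rcases tri _ (conj_mem_of_mem_normalizer b.2 y.2) with k | k | k
    · exact absurd ((mq y).2 ((mem_normalizer_iff.1 (NQ b.2) _).2 k)) h1
    · have := (mf (b * y' * b⁻¹ * y'⁻¹)).2 k
      simp only [map_mul, map_inv] at this
      exact commutatorElement_eq_one_iff_mul_comm.1 this
    · have := (mf (b * y' * b⁻¹ * y')).2 k
      simp only [map_mul, map_inv] at this
      obtain ⟨n, hn⟩ := lift_inv f (by
        rw [QuotientGroup.ker_mk']
        exact (H1.isPGroup_pCoreOf (p := 2) E).comap_subtype) (y := y') (g := b)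
        (by rw [← orderOf_coe]; exact (orderOf_coe y).trans hy) (eq_inv_of_mul_eq_one_left this)
      exact absurd ⟨n, congrArg Subtype.val hn⟩ hc
  refine not_two hE ?_
  conv_lhs => rw [← hE.2.1]
  rw [commutator_le]
  intro e he b hb
  let e' : 𝐍(E) := ⟨e, le_normalizer he⟩
  let b' : 𝐍(E) := ⟨b, BN hb⟩
  refine (mf ⁅e', b'⁆).1 ?_
  rw [map_commutatorElement, commutatorElement_eq_one_iff_commute]
  have c : Commute (f y') (f b') := (cm b').symm
  rcases tri e he with k | k | k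
  · rw [(mf e').2 k]; exact Commute.one_left _
  · have := (mf (e' * y'⁻¹)).2 k
    rw [map_mul, map_inv, mul_inv_eq_one] at this
    rwa [this]
  · have := (mf (e' * y')).2 k
    rw [map_mul] at this
    rw [eq_inv_of_mul_eq_one_left this]
    exact c.inv_left

end LBx

open LBx

theorem blk_inv {T E : Subgroup G} (hT : IsPGroup 2 T) (hE : IsBaumannBlock 2 T E) :
    (∃ y ∈ E, orderOf y = 3 ∧ ∃ g : G, g * y * g⁻¹ = y⁻¹) ∧ pCoreOf 2 E ≠ ⊥ := by
  have _ := hT
  have : Fact (Nat.Prime 2) := ⟨Nat.prime_two⟩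
  rcases hE.2.2.2.2 with ⟨F, _, _, n, hF, e, ⟨-, -, ρ, ψ, -, hψ, -⟩, -⟩ | ⟨-, m, e, ⟨-, -, ρ, ψ, -, -, hψ, -⟩, -⟩
  · refine ⟨?_, fun h => ?_⟩
    · rcases two_or_four hF with h | h
      · obtain ⟨π, -, hk⟩ := exists_proj e
        exact small hE π hk (card_comm_sl h)
      · have : CharP F 2 := charP_of_card_eq_prime_pow hF
        obtain ⟨π, hs, hk⟩ := exists_proj_sl h e
        obtain ⟨⟨y, hy⟩, h2⟩ := sl2_three (F := F)
        obtain ⟨g, hg⟩ := h2 y hy
        exact of_proj π hs hk hy hg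
    · obtain ⟨u, hu⟩ := hψ (Multiplicative.ofAdd 1)
      have : u = 1 := Subtype.ext (mem_bot.1 (h ▸ omega_le _ u.2))
      rw [this, map_one] at hu
      exact zero_ne_one (congrFun (congrArg Multiplicative.toAdd hu) 0)
  · obtain ⟨π, hs, hk⟩ := exists_proj e
    refine ⟨?_, fun h => ?_⟩
    · rcases lt_or_ge m 2 with h | h
      · exact small hE π hk (card_alt h)
      · obtain ⟨y, g, hy, hg, -⟩ := alt_inv h
        exact of_proj π hs hk hy hg
    · rcases Nat.eq_zero_or_pos m with rfl | hm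
      · refine not_two hE fun x hx => ⟨⟨x, hx⟩, ?_, rfl⟩
        have : Subsingleton (Equiv.Perm (Fin (2 * 0 + 1))) := inferInstanceAs (Subsingleton (Equiv.Perm (Fin 1)))
        rw [← hk]
        exact Subsingleton.elim _ _
      · obtain ⟨u, hu⟩ := hψ (Pi.single ⟨0, by omega⟩ 1 + Pi.single ⟨1, by omega⟩ 1) (by
          simp only [Pi.add_apply, Finset.sum_add_distrib, Finset.sum_pi_single', Finset.mem_univ, if_true]
          rfl)
        have : u = 1 := Subtype.ext (mem_bot.1 (h ▸ omega_le _ u.2))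
        rw [this, map_one] at hu
        have := congrFun hu ⟨1, by omega⟩
        simp at this

end H44.RW
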