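import Mathlib
import Cfsg.Agent.Base
import Cfsg.Agent.Lib.Rwl.KQ
import Cfsg.Agent.Lib.Rwl.LBx

set_option autoImplicit false

namespace H44.RW
open Subgroup H69 H70 Cfsg
open scoped commutatorElement

universe u
variable {G : Type u} [Group G] [Finite G]

theorem LBx.card_even {m : ℕ} (h : m < 2) : Nat.card {v : Fin (2 * m + 1) → ZMod 2 // ∑ i, v i = 0} ≤ 4 := by
  rw [Nat.card_eq_fintype_card]
  obtain rfl | rfl : m = 0 ∨ m = 1 := by omega
  · decide +revert
  · decide +revert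

theorem LBx.two_smul_zero : ∀ a : ZMod 2, 2 • a = 0 := by decide

open LBx

open scoped MatrixGroups in
theorem blk_cases (hc : 𝐂(pCore 2 G) ≤ pCore 2 G) (k : KK G) {S E : Subgroup G}
    (hE : IsBaumannBlock 2 S E) (hQ : pCoreOf 2 E = pCore 2 G) {y : G} (hyE : y ∈ E)
    (hy : ∀ t ∈ 𝐂¹(y), orderOf t ≠ 2) : Nat.card (pCore 2 G) ≤ 4 ∨
      ∃ (F : Type) (_ : Field F) (_ : Fintype F) (_ : CharP F 2) (π : E →* SL(2, F)),
        4 ≤ Fintype.card F ∧ Function.Surjective π ∧ π.ker = pCore 2 E := by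
  have : Fact (Nat.Prime 2) := ⟨Nat.prime_two⟩
  have hZ : omegaOneCenter 2 (pCoreOf 2 E) ⊓ 𝐂(E) = ⊥ := by
    by_contra h
    obtain ⟨t, ht, o⟩ := exists_orderOf_eq_prime
      ((H1.isPGroup_pCoreOf (p := 2) E).to_le (inf_le_left.trans (omega_le _))) h
    exact hy t (mem_c1.2 (mem_centralizer_iff_commute.1 ht.2 y hyE)) o
  rcases hE.2.2.2.2 with ⟨F, _, _, n, hF, e, ⟨-, -, ρ, ψ, -, -, h1, -⟩, hW⟩ |
    ⟨-, m, -, ⟨-, -, ρ, ψ, hρ, h0, hψ, h1, h2⟩, hW⟩
  · rcases two_or_four hF with h | h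
    · left
      have inj : Function.Injective ψ := (injective_iff_map_eq_one ψ).2 fun u hu =>
        Subtype.ext (mem_bot.1 (hZ ▸ (h1 u).1 hu))
      rw [← hQ, hW.resolve_right fun e => absurd e.1 (by decide)]
      refine (Nat.card_le_card_of_injective ψ inj).trans ?_
      simp [h]
    · obtain ⟨π, hs, hk⟩ := exists_proj_sl h e
      exact .inr ⟨F, _, _, charP_of_card_eq_prime_pow hF, π, h, hs, hk⟩
  · have inj : Function.Injective ψ := (injective_iff_map_eq_one ψ).2 fun u hu =>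
      Subtype.ext (mem_bot.1 (hZ ▸ (h1 u).1 hu))
    rcases lt_or_ge m 2 with h | h
    · left
      rw [← hQ, hW]
      exact (Nat.card_le_card_of_injective
        (fun u => (⟨(ψ u).toAdd, h0 u⟩ : {v : Fin (2 * m + 1) → ZMod 2 // ∑ i, v i = 0}))
        fun u v e => inj (congrArg Subtype.val e)).trans (card_even h)
    · exfalso
      have fx : ∀ (e : E) (u : omegaOneCenter 2 (pCoreOf 2 E)),
          (∀ i, (ψ u).toAdd ((ρ e)⁻¹ i) = (ψ u).toAdd i) → (u : G) * e = e * u := fun e u h => by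
        obtain ⟨w, a, b⟩ := h2 e u
        have : w = u := inj (funext fun i => (b i).trans (h i))
        rw [this] at a
        exact eq_mul_of_mul_inv_eq a.symm |>.symm
      have hk : IsPGroup 2 ρ.ker := by
        refine (H1.isPGroup_pCore (p := 2) (G := G)).comap_subtype.to_le fun e he => hc ?_
        rw [← hQ, hW]
        exact mem_centralizer_iff_commute.2 fun u hu => fx e ⟨u, hu⟩ fun i => by
          rw [MonoidHom.mem_ker.1 he, inv_one, Equiv.Perm.one_apply]
      obtain ⟨y', g', o, hg, v, v0, v1, v2⟩ := alt_inv h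
      obtain ⟨y₀, e₀⟩ : y'.1 ∈ ρ.range := by rw [hρ]; exact y'.2
      obtain ⟨g₀, e₁⟩ : g'.1 ∈ ρ.range := by rw [hρ]; exact g'.2
      obtain ⟨z, n, o', e', hn⟩ := inv_of_proj ρ hk (y := y₀) (g := g₀) (by rw [e₀, orderOf_coe, o])
        (by rw [e₀, e₁]; exact congrArg Subtype.val hg)
      obtain ⟨u, rfl⟩ := hψ v v1
      refine k.odd (y := z) (g := n) (by rwa [orderOf_coe]) (congrArg Subtype.val hn) (t := u)
        (mem_c1.2 (fx z u (by rwa [e', e₀])).symm) ?_
      rw [orderOf_coe]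
      refine orderOf_eq_prime (inj ?_) fun e => v0 (by rw [e, map_one, toAdd_one])
      rw [map_pow, map_one]
      exact funext fun i => two_smul_zero _

end H44.RW
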