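import Mathlib
import Cfsg.Agent.Base
import Cfsg.Agent.Lib.Rwl.Defs

set_option autoImplicit false

namespace H44.RW
open Subgroup H69 H70 Cfsg
open scoped commutatorElement

universe u
variable {G : Type u} [Group G] [Finite G]

omit [Finite G] in
theorem LC.cj {x : G} (h : LC x) (g : G) : LC (g * x * g⁻¹) := by
  intro R hR h1 hx
  rw [← cj_centralizer_singleton, le_cj_iff] at hx ⊢
  rw [cj_normalizer]
  exact h _ (isPGroup_cj hR _) (fun e => h1 (cj_eq_bot_iff.1 e)) hx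

theorem LC.mem {x : G} (h : LC x) {y g : G} (hy : IsPGroup 3 (zpowers y)) (h1 : y ≠ 1)
    (hx : y ∈ 𝐂¹(x)) (hg : g * y * g⁻¹ ∈ 𝐂¹(x)) : g ∈ 𝐂¹(x) := by
  have h' := h.cj g⁻¹
  have hy' : y ∈ 𝐂¹(g⁻¹ * x * g⁻¹⁻¹) := by
    rw [← cj_centralizer_singleton, mem_cj, inv_inv]; exact hg
  obtain ⟨R, hR, hyR⟩ := exists_isSylowIn_le (L := 𝐂¹(x) ⊓ 𝐂¹(g⁻¹ * x * g⁻¹⁻¹)) hy
    (zpowers_le.2 ⟨hx, hy'⟩)
  have R1 : R ≠ ⊥ := fun e => h1 (mem_bot.1 (e ▸ hyR (mem_zpowers y)))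
  have n1 := h R hR.isP R1 (hR.le.trans inf_le_left)
  have n2 := h' R hR.isP R1 (hR.le.trans inf_le_right)
  have hS : IsSylowIn 3 R ⊤ := isSylowIn_of_normalizer le_top
    (by rw [top_inf_eq]; exact hR.mono le_normalizer (le_inf n1 n2))
  have s1 : IsSylowIn 3 R 𝐂¹(x) := hS.mono (hR.le.trans inf_le_left) le_top
  have s2 : IsSylowIn 3 (R ^ᶜ g) 𝐂¹(x) := (hS.cj_of_mem (mem_top g)).mono (by
    have := cj_mono g (hR.le.trans inf_le_right)
    rwa [← cj_centralizer_singleton, cj_inv_cj] at this) le_top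
  obtain ⟨c, hc, e⟩ := s2.conj s1
  rw [cj_cj] at e
  have := n1 (cj_eq_self_iff.1 e)
  simpa using mul_mem (inv_mem hc) this

theorem LC.iso {x : G} (h : LC x) (hx : IsPGroup 3 (zpowers x)) : IsIsolated x := by
  intro g hg
  by_cases h1 : x = 1
  · simp [h1]
  exact mem_centralizer_singleton_iff_conj.1 (h.mem hx h1 (mem_c1.2 rfl) (mem_c1.2 hg.eq))

theorem LC.sub {x : G} (h : LC x) {M : Subgroup G} (hx : x ∈ M) : LC (⟨x, hx⟩ : M) := by
  intro R hR h1 hc g hg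
  have k := h (R.map M.subtype) (hR.map _) (fun e => h1 (map_subtype_eq_bot_iff.1 e)) (by
    rintro _ ⟨r, hr, rfl⟩
    exact mem_c1.2 (congrArg Subtype.val (mem_c1.1 (hc hr))))
  have : (g : G) ∈ M ⊓ 𝐍(R.map M.subtype) := by
    rw [← map_subtype_normalizer]; exact ⟨g, hg, rfl⟩
  exact mem_c1.2 (Subtype.ext (mem_c1.1 (k this.2)))

theorem LC.map {x : G} (h : LC x) (hx : IsPGroup 3 (zpowers x)) {Γ : Type*} [Group Γ] [Finite Γ] {f : G →* Γ}
    (hf : Function.Surjective f) : LC (f x) := by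
  intro R' hR' h1 hc g hg
  obtain ⟨n, rfl⟩ := hf g
  have key : ∀ m : G, f m ∈ 𝐍(R') → m ∈ 𝐍(R'.comap f) := fun m hm => by
    rw [← cj_eq_self_iff, comap_cj, cj_eq_self_iff.2 hm]
  have xn : x ∈ 𝐍(R'.comap f) := key x (centralizer_le_normalizer _
    (mem_centralizer_iff_commute.2 fun r hr => (mem_c1.1 (hc hr)).symm))
  obtain ⟨Q, hQ, hxQ⟩ := exists_isSylowIn_le (L := R'.comap f ⊔ zpowers x) hx le_sup_right
  have q1 : Q ≤ 𝐂¹(x) := Iso.le_centralizer (h.iso hx) hQ.isP (hxQ (mem_zpowers x))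
  have hR : IsSylowIn 3 (Q ⊓ R'.comap f) (R'.comap f) :=
    hQ.inf_normal le_sup_left (sup_le le_normalizer (zpowers_le.2 xn))
  have hm := hR.map f
  rw [map_comap_eq_self_of_surjective hf] at hm
  have e := hm.max R' hm.le le_rfl hR'
  have R1 : Q ⊓ R'.comap f ≠ ⊥ := fun k => h1 (by rw [e, k, Subgroup.map_bot])
  obtain ⟨k, hk, a, ha, rfl⟩ := hR.frattini (key n hg)
  rw [map_mul]
  refine mul_mem (hc hk) (mem_c1.2 ?_)
  rw [← map_mul, ← map_mul, mem_c1.1 (h _ hR.isP R1 (inf_le_left.trans q1) ha)]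

theorem lc_of (P : Sylow 3 G) {x : G} (hxP : x ∈ (P : Subgroup G))
    (hlc : ∀ R : Subgroup G, R ≤ (P : Subgroup G) → R ≠ ⊥ → 𝐍(R) ≤ 𝐂¹(x)) : LC x := by
  intro R hR h1 hc
  by_cases x1 : x = 1
  · intro g _; rw [x1]; exact mem_c1.2 (by simp)
  have p1 : (P : Subgroup G) ≤ 𝐂¹(x) :=
    le_normalizer.trans (hlc P le_rfl fun e => x1 (mem_bot.1 (e ▸ hxP)))
  obtain ⟨c, hc', e⟩ := (isSylowIn_of_le P p1).exists_cj_le hR hc
  have := hlc _ e fun k => h1 (cj_eq_bot_iff.1 k)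
  rw [← cj_normalizer, cj_le_iff, cj_eq_of_mem (inv_mem hc')] at this
  exact this

theorem reduce_aux (H : ∀ (Γ : Type u) [Group Γ] [Finite Γ] (y : Γ), Hyp y → False) (n : ℕ) :
    ∀ (G : Type u) [Group G] [Finite G] (x : G), Nat.card G = n → IsPGroup 3 (zpowers x) → LC x →
      InZStar 3 x := by
  induction n using Nat.strong_induction_on with
  | _ n ih =>
  intro G _ _ x hn hx h
  by_cases x1 : x = 1
  · intro g; rw [x1]; simp
  obtain ⟨y, hyx, hy⟩ := exists_orderOf_eq_prime hx (fun e => x1 (zpowers_eq_bot.1 e))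
  have y1 : y ≠ 1 := by rintro rfl; simp at hy
  have py : IsPGroup 3 (zpowers y) := hx.to_le (zpowers_le.2 hyx)
  have e : 𝐂¹(y) = 𝐂¹(x) := by
    refine le_antisymm ?_ ?_
    · rw [← H69.centralizer_zpowers y]
      refine (centralizer_le_normalizer _).trans (h _ py (fun e => y1 (zpowers_eq_bot.1 e)) ?_)
      exact (zpowers_le.2 hyx).trans (zpowers_le.2 (mem_c1.2 rfl))
    · rw [← H69.centralizer_zpowers, ← H69.centralizer_zpowers]; exact centralizer_anti (zpowers_le.2 hyx)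
  have ly : LC y := fun R hR h1 hc => e ▸ h R hR h1 (e ▸ hc)
  have zy : InZStar 3 y := by
    by_contra nz
    refine H G y ⟨⟨hy, ly.iso py, nz, fun M hM h1 => ?_, fun N _ h1 => ?_⟩, ly⟩
    · refine ih _ ?_ M _ rfl ?_ (ly.sub hM)
      · rw [← hn, ← M.index_mul_card]
        exact lt_mul_of_one_lt_left Nat.card_pos (M.one_lt_index_of_ne_top h1)
      · refine isPGroup_zpowers_of_orderOf ⟨1, ?_⟩
        rw [← Subgroup.orderOf_coe, pow_one]; exact hy
    · refine ih _ ?_ (G ⧸ N) _ rfl ?_ (ly.map py (QuotientGroup.mk'_surjective N))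
      · rw [← hn, ← N.index_eq_card, ← N.index_mul_card]
        exact lt_mul_of_one_lt_right (Nat.pos_of_ne_zero N.index_ne_zero_of_finite)
          (N.one_lt_card_iff_ne_bot.2 h1)
      · have := py.map (QuotientGroup.mk' N)
        rwa [MonoidHom.map_zpowers] at this
  intro g
  have hO : (pPrimeCore 3 G).Normal := inferInstance
  obtain ⟨c, hc, hcg⟩ := Iso.exists_mul_mem (ly.iso py) py (K := pPrimeCore 3 G ⊔ zpowers y)
    (mem_sup_right (mem_zpowers y)) (g := g) (by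
      have := mul_mem (mem_sup_left (T := zpowers y) (zy g)) (mem_sup_right (mem_zpowers y))
      simpa using this)
  obtain ⟨b, hb, o, ho, rfl⟩ := (mem_sup_of_le_normalizer_right (A := zpowers y) (B := pPrimeCore 3 G)
    (le_top.trans (normal_iff_top_le_normalizer.1 hO))).1 (sup_comm (pPrimeCore 3 G) _ ▸ hc)
  have k : o * g ∈ 𝐂¹(x) := by
    have hb' : b ∈ 𝐂¹(y) := zpowers_le.2 (mem_c1.2 rfl) hb
    have := mul_mem (inv_mem hb') hcg
    rw [← e]; simpa [mul_assoc] using this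
  have k2 := mem_centralizer_singleton_iff_conj.1 k
  have : g * x * g⁻¹ * x⁻¹ = o⁻¹ * (x * o * x⁻¹) := by
    calc g * x * g⁻¹ * x⁻¹ = o⁻¹ * (o * g * x * (o * g)⁻¹) * o * x⁻¹ := by group
      _ = _ := by rw [k2]; group
  rw [this]
  exact mul_mem (inv_mem ho) (hO.conj_mem _ ho _)

theorem reduce (H : ∀ (Γ : Type u) [Group Γ] [Finite Γ] (y : Γ), Hyp y → False) {x : G}
    (hx : IsPGroup 3 (zpowers x)) (h : LC x) : InZStar 3 x :=
  reduce_aux H _ G x rfl hx h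

end H44.RW
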